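import Mathlib
import Cfsg.Agent.Lib.Helper48.RCBase

/-!
# Project QB (helper48, S2359): piece ORD3

In the abstract rank-one setting `Ok0`: an element commuting with an element of order 3 has
order dividing `|Bs|`.
-/

set_option autoImplicit false

namespace Cfsg.Agent.Lib.Helper48.QB

open Cfsg.Agent.Lib.Helper48.RC

open scoped Pointwise

variable {F : Type*} [Field F] [Finite F] [CharP F 3] {G : Type*} [Group G] [Finite G]
variable {θ : F →+* F} {T : F → F → F → G} {H : Fˣ → G} {w : G}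

-- QB-ORD3
theorem ord_three (h : Ok0 θ T H w) (y u : G) (hu : orderOf u = 3) (huy : u * y = y * u) :
    orderOf y ∣ Nat.card h.Bs := by
  obtain ⟨P, hP⟩ := h.syl
  have : Fact (Nat.Prime 3) := ⟨Nat.prime_three⟩
  have hpg : IsPGroup 3 (Subgroup.zpowers u) := by
    apply IsPGroup.of_card (n := 1)
    rw [Nat.card_zpowers, hu, pow_one]
  obtain ⟨Q, hQ⟩ := hpg.exists_le_sylow
  obtain ⟨g, hg⟩ := MulAction.exists_smul_eq G P Q
  have huQ : u ∈ (Q : Subgroup G) := hQ (Subgroup.mem_zpowers u)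
  have huQ' : u ∈ MulAut.conj g • (P : Subgroup G) := by
    rw [← Sylow.coe_subgroup_smul, hg]; exact huQ
  rw [Subgroup.mem_pointwise_smul_iff_inv_smul_mem, MulAut.smul_def, MulAut.conj_inv_apply]
    at huQ'
  have hu'Q : g⁻¹ * u * g ∈ h.Qs := (h.mem_Qs _).2 ((hP _).1 huQ')
  have hu'1 : g⁻¹ * u * g ≠ 1 := by
    intro e
    have hu1 : u = 1 := by
      have e2 : g * (g⁻¹ * u * g) * g⁻¹ = g * 1 * g⁻¹ := by rw [e]
      have e3 : g * (g⁻¹ * u * g) * g⁻¹ = u := by group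
      rw [e3] at e2
      rw [e2]; group
    rw [hu1, orderOf_one] at hu
    omega
  have e1 : y * u * y⁻¹ = u := by rw [← huy, mul_inv_cancel_right]
  have hcomm : (g⁻¹ * y * g) * (g⁻¹ * u * g) * (g⁻¹ * y * g)⁻¹ = g⁻¹ * u * g := by
    have e2 : (g⁻¹ * y * g) * (g⁻¹ * u * g) * (g⁻¹ * y * g)⁻¹ = g⁻¹ * (y * u * y⁻¹) * g := by
      group
    rw [e2, e1]
  have hy'B : g⁻¹ * y * g ∈ h.Bs :=
    h.mem_Bs_of_conj hu'Q hu'1 (by rw [hcomm]; exact hu'Q)
  have hord : orderOf (g⁻¹ * y * g) = orderOf y := by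
    have e := orderOf_injective (MulAut.conj g⁻¹).toMonoidHom (MulAut.conj g⁻¹).injective y
    simpa [MulAut.conj_apply] using e
  rw [← hord]
  have e4 := orderOf_dvd_natCard (⟨g⁻¹ * y * g, hy'B⟩ : h.Bs)
  rwa [Subgroup.orderOf_mk] at e4

end Cfsg.Agent.Lib.Helper48.QB
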