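import Mathlib
import Cfsg.Agent.Lib.Helper24.RkSigG
import Cfsg.Agent.Lib.Helper24.ReeH

/-!
# Twisted groups of rank one: stabilisers of three points

In the action of a twisted group of rank one on the cosets of `B¹`, the stabiliser of three
points is conjugate to the centraliser in `H¹` of a non-trivial element of `U¹`; the small Ree
groups.
-/

set_option autoImplicit false
set_option maxHeartbeats 400000

namespace Cfsg.Agent.Lib.Helper24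

open Cfsg.Lie Matrix
open Cfsg.Agent.Lib.Helper27

namespace Rk1

variable {F : Type*} [Field F] {D : ChevalleyDatum} {hD : D ∈ chevList} (R : Rk1 F D hD)

/-- `n₀` normalises `H`. -/
theorem n0_conj_diag (h : GL D.Idx F) (hh : h ∈ D.diagonalSubgroup F) :
    R.n₀⁻¹ * h * R.n₀ ∈ D.diagonalSubgroup F ∧ R.n₀ * h * R.n₀⁻¹ ∈ D.diagonalSubgroup F := by
  have hN := diagonal_normal_monomial (F := F) D hD
  have hhN : h ∈ D.monomialSubgroup F := by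
    unfold ChevalleyDatum.monomialSubgroup
    exact (le_sup_left : D.diagonalSubgroup F ≤ D.diagonalSubgroup F ⊔ _) hh
  constructor
  · have h1 := hN.conj_mem ⟨h, hhN⟩ (Subgroup.mem_subgroupOf.2 hh) ⟨R.n₀, R.hn₀N⟩⁻¹
    have h2 := Subgroup.mem_subgroupOf.1 h1
    simp only [Subgroup.coe_mul, Subgroup.coe_inv, inv_inv] at h2
    exact h2
  · have h1 := hN.conj_mem ⟨h, hhN⟩ (Subgroup.mem_subgroupOf.2 hh) ⟨R.n₀, R.hn₀N⟩
    exact Subgroup.mem_subgroupOf.1 h1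

/-- `n₀⁻¹` conjugates `U` into `V`. -/
theorem n0_inv_conj_pos (u : GL D.Idx F) (hu : u ∈ D.posUnipotent F) :
    R.n₀⁻¹ * u * R.n₀ ∈ D.negUnipotent F := by
  have hHB : D.diagonalSubgroup F ≤ D.borelSubgroup F := le_sup_right
  have h1 : (R.n₀ * R.n₀)⁻¹ * u * ((R.n₀ * R.n₀)⁻¹)⁻¹ ∈ D.posUnipotent F :=
    R.borel_conj_pos _ u (hHB (Subgroup.inv_mem _ R.n0_sq)) hu
  have h2 : R.n₀ * ((R.n₀ * R.n₀)⁻¹ * u * ((R.n₀ * R.n₀)⁻¹)⁻¹) * R.n₀⁻¹ ∈ D.negUnipotent F :=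
    R.hconj (Subgroup.mem_map.2 ⟨_, h1, rfl⟩)
  have e : R.n₀ * ((R.n₀ * R.n₀)⁻¹ * u * ((R.n₀ * R.n₀)⁻¹)⁻¹) * R.n₀⁻¹ = R.n₀⁻¹ * u * R.n₀ := by
    group
  rw [e] at h2
  exact h2

/-- `B¹ ∩ n₀ B¹ n₀⁻¹ = H¹`. -/
theorem two_stab (b : GL D.Idx F) (hb : b ∈ D.borelSubgroup F ⊓ R.G1)
    (hb' : R.n₀⁻¹ * b * R.n₀ ∈ D.borelSubgroup F) : b ∈ D.diagonalSubgroup F ⊓ R.G1 := by
  obtain ⟨u, hu, h, hh, e⟩ := R.borel_decomp b hb
  have hHB : D.diagonalSubgroup F ≤ D.borelSubgroup F := le_sup_right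
  have e1 : R.n₀⁻¹ * u * R.n₀ = (R.n₀⁻¹ * b * R.n₀) * (R.n₀⁻¹ * h * R.n₀)⁻¹ := by
    rw [e]; group
  have h1 : R.n₀⁻¹ * u * R.n₀ ∈ D.borelSubgroup F ⊓ D.negUnipotent F :=
    Subgroup.mem_inf.2 ⟨by
      rw [e1]
      exact Subgroup.mul_mem _ hb' (Subgroup.inv_mem _ (hHB (R.n0_conj_diag h hh.1).1)),
      R.n0_inv_conj_pos u hu.1⟩
  rw [borel_inf_negUnipotent D hD, Subgroup.mem_bot] at h1
  have hu1 : u = 1 := by
    have e2 : u = R.n₀ * (R.n₀⁻¹ * u * R.n₀) * R.n₀⁻¹ := by group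
    rw [e2, h1]
    group
  rw [e, hu1, one_mul]
  exact hh

/-- An element of `H¹` fixing the point `u n₀ B¹` centralises `u`. -/
theorem three_stab (h u : GL D.Idx F) (hh : h ∈ D.diagonalSubgroup F ⊓ R.G1)
    (hu : u ∈ D.posUnipotent F) (hf : (u * R.n₀)⁻¹ * h * (u * R.n₀) ∈ D.borelSubgroup F) :
    h * u = u * h := by
  have hHB : D.diagonalSubgroup F ≤ D.borelSubgroup F := le_sup_right
  have hu' : h⁻¹ * u⁻¹ * h * u ∈ D.posUnipotent F := by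
    have h1 := R.borel_conj_pos h⁻¹ u⁻¹ (hHB (Subgroup.inv_mem _ hh.1)) (Subgroup.inv_mem _ hu)
    rw [inv_inv] at h1
    exact Subgroup.mul_mem _ h1 hu
  have e1 : R.n₀⁻¹ * (h⁻¹ * u⁻¹ * h * u) * R.n₀ =
      (R.n₀⁻¹ * h * R.n₀)⁻¹ * ((u * R.n₀)⁻¹ * h * (u * R.n₀)) := by group
  have h1 : R.n₀⁻¹ * (h⁻¹ * u⁻¹ * h * u) * R.n₀ ∈ D.borelSubgroup F ⊓ D.negUnipotent F :=
    Subgroup.mem_inf.2 ⟨by
      rw [e1]
      exact Subgroup.mul_mem _ (Subgroup.inv_mem _ (hHB (R.n0_conj_diag h hh.1).1)) hf,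
      R.n0_inv_conj_pos _ hu'⟩
  rw [borel_inf_negUnipotent D hD, Subgroup.mem_bot] at h1
  have h2 : h⁻¹ * u⁻¹ * h * u = 1 := by
    have e2 : h⁻¹ * u⁻¹ * h * u =
        R.n₀ * (R.n₀⁻¹ * (h⁻¹ * u⁻¹ * h * u) * R.n₀) * R.n₀⁻¹ := by group
    rw [e2, h1]
    group
  have e3 : h * u = u * h * (h⁻¹ * u⁻¹ * h * u) := by group
  rw [e3, h2, mul_one]

/-- The cosets of `B¹` other than `B¹` are the `u n₀ B¹`, `u ∈ U¹`. -/
theorem coset_nf (g : GL D.Idx F) (hg : g ∈ R.G1) (hgB : g ∉ D.borelSubgroup F) :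
    ∃ u ∈ D.posUnipotent F ⊓ R.G1, ∃ b ∈ D.borelSubgroup F ⊓ R.G1, g = u * R.n₀ * b := by
  have hHB : D.diagonalSubgroup F ≤ D.borelSubgroup F := le_sup_right
  have hUB : D.posUnipotent F ≤ D.borelSubgroup F := le_sup_left
  rcases R.decomp g hg with h | ⟨b, hb, u₁, hu₁, e⟩
  · exact absurd h.1 hgB
  · obtain ⟨u, hu, h, hh, eb⟩ := R.borel_decomp b hb
    have hc := (R.n0_conj_diag h hh.1).1
    refine ⟨u, hu, (R.n₀⁻¹ * h * R.n₀) * u₁, Subgroup.mem_inf.2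
      ⟨Subgroup.mul_mem _ (hHB hc) (hUB hu₁.1), Subgroup.mul_mem _ (Subgroup.mul_mem _
        (Subgroup.mul_mem _ (Subgroup.inv_mem _ R.hn₀G) hh.2) R.hn₀G) hu₁.2⟩, ?_⟩
    rw [e, eb]
    group

/-- membership in the stabiliser of a coset of `B¹` -/
theorem mem_stab (t a : ↥R.G1) :
    t ∈ MulAction.stabilizer ↥R.G1
        (QuotientGroup.mk a : ↥R.G1 ⧸ (D.borelSubgroup F ⊓ R.G1).subgroupOf R.G1) ↔
      ((a : GL D.Idx F))⁻¹ * (t : GL D.Idx F) * (a : GL D.Idx F) ∈ D.borelSubgroup F := by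
  rw [MulAction.mem_stabilizer_iff, MulAction.Quotient.smul_mk, smul_eq_mul, QuotientGroup.eq,
    Subgroup.mem_subgroupOf]
  constructor
  · intro h
    have h1 := Subgroup.inv_mem _ h.1
    have e : (((t * a)⁻¹ * a : ↥R.G1) : GL D.Idx F)⁻¹ =
        ((a : GL D.Idx F))⁻¹ * (t : GL D.Idx F) * (a : GL D.Idx F) := by
      simp only [Subgroup.coe_mul, Subgroup.coe_inv]
      group
    rwa [e] at h1
  · intro h
    refine Subgroup.mem_inf.2 ⟨?_, ((t * a)⁻¹ * a).2⟩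
    have h1 := Subgroup.inv_mem _ h
    have e : (((a : GL D.Idx F))⁻¹ * (t : GL D.Idx F) * (a : GL D.Idx F))⁻¹ =
        (((t * a)⁻¹ * a : ↥R.G1) : GL D.Idx F) := by
      simp only [Subgroup.coe_mul, Subgroup.coe_inv]
      group
    rwa [e] at h1

/-- equality of cosets of `B¹` -/
theorem mk_eq_iff (a c : ↥R.G1) :
    (QuotientGroup.mk a : ↥R.G1 ⧸ (D.borelSubgroup F ⊓ R.G1).subgroupOf R.G1) =
        QuotientGroup.mk c ↔
      ((a : GL D.Idx F))⁻¹ * (c : GL D.Idx F) ∈ D.borelSubgroup F := by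
  rw [QuotientGroup.eq, Subgroup.mem_subgroupOf]
  constructor
  · intro h
    have h1 := h.1
    simp only [Subgroup.coe_mul, Subgroup.coe_inv] at h1
    exact h1
  · intro h
    refine Subgroup.mem_inf.2 ⟨?_, (a⁻¹ * c).2⟩
    simp only [Subgroup.coe_mul, Subgroup.coe_inv]
    exact h

/-- The stabiliser of three distinct points is conjugate into the centraliser in `H¹` of a
non-trivial element of `U¹`. -/
theorem three_point (x y z : ↥R.G1 ⧸ (D.borelSubgroup F ⊓ R.G1).subgroupOf R.G1)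
    (hxy : x ≠ y) (hxz : x ≠ z) (hyz : y ≠ z) :
    ∃ c : ↥R.G1, ∃ u ∈ D.posUnipotent F ⊓ R.G1, u ≠ 1 ∧
      ∀ t ∈ MulAction.stabilizer ↥R.G1 x ⊓ MulAction.stabilizer ↥R.G1 y ⊓
          MulAction.stabilizer ↥R.G1 z,
        ((c : GL D.Idx F))⁻¹ * (t : GL D.Idx F) * (c : GL D.Idx F) ∈
            D.diagonalSubgroup F ⊓ R.G1 ∧
          (((c : GL D.Idx F))⁻¹ * (t : GL D.Idx F) * (c : GL D.Idx F)) * u =
            u * (((c : GL D.Idx F))⁻¹ * (t : GL D.Idx F) * (c : GL D.Idx F)) := by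
  have hUB : D.posUnipotent F ≤ D.borelSubgroup F := le_sup_left
  obtain ⟨a, rfl⟩ := QuotientGroup.mk_surjective x
  obtain ⟨b, rfl⟩ := QuotientGroup.mk_surjective y
  obtain ⟨d, rfl⟩ := QuotientGroup.mk_surjective z
  have hab : ((a : GL D.Idx F))⁻¹ * (b : GL D.Idx F) ∉ D.borelSubgroup F :=
    fun h => hxy ((R.mk_eq_iff a b).2 h)
  obtain ⟨u₁, hu₁, b₁, hb₁, e₁⟩ := R.coset_nf _
    (Subgroup.mul_mem _ (Subgroup.inv_mem _ a.2) b.2) hab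
  obtain ⟨c, hc⟩ : ∃ c : ↥R.G1, (c : GL D.Idx F) = (a : GL D.Idx F) * u₁ :=
    ⟨a * ⟨u₁, hu₁.2⟩, rfl⟩
  obtain ⟨v, hv⟩ : ∃ v : ↥R.G1, (v : GL D.Idx F) = (c : GL D.Idx F) * R.n₀ :=
    ⟨c * ⟨R.n₀, R.hn₀G⟩, rfl⟩
  have eb : (b : GL D.Idx F) = (a : GL D.Idx F) * (u₁ * R.n₀ * b₁) := by
    rw [← e₁]
    group
  have hx : (QuotientGroup.mk a : ↥R.G1 ⧸ (D.borelSubgroup F ⊓ R.G1).subgroupOf R.G1) =
      QuotientGroup.mk c := by
    rw [R.mk_eq_iff, hc]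
    have e : ((a : GL D.Idx F))⁻¹ * ((a : GL D.Idx F) * u₁) = u₁ := by group
    rw [e]
    exact hUB hu₁.1
  have hy : (QuotientGroup.mk b : ↥R.G1 ⧸ (D.borelSubgroup F ⊓ R.G1).subgroupOf R.G1) =
      QuotientGroup.mk v := by
    rw [R.mk_eq_iff, hv, hc, eb]
    have e : ((a : GL D.Idx F) * (u₁ * R.n₀ * b₁))⁻¹ * ((a : GL D.Idx F) * u₁ * R.n₀) = b₁⁻¹ := by
      group
    rw [e]
    exact Subgroup.inv_mem _ hb₁.1
  have hcd : ((c : GL D.Idx F))⁻¹ * (d : GL D.Idx F) ∉ D.borelSubgroup F := by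
    intro h
    apply hxz
    rw [hx]
    exact (R.mk_eq_iff c d).2 h
  obtain ⟨u₂, hu₂, b₂, hb₂, e₂⟩ := R.coset_nf _
    (Subgroup.mul_mem _ (Subgroup.inv_mem _ c.2) d.2) hcd
  obtain ⟨w, hw⟩ : ∃ w : ↥R.G1, (w : GL D.Idx F) = (c : GL D.Idx F) * u₂ * R.n₀ :=
    ⟨c * ⟨u₂, hu₂.2⟩ * ⟨R.n₀, R.hn₀G⟩, rfl⟩
  have ed : (d : GL D.Idx F) = (c : GL D.Idx F) * (u₂ * R.n₀ * b₂) := by
    rw [← e₂]
    group
  have hz : (QuotientGroup.mk d : ↥R.G1 ⧸ (D.borelSubgroup F ⊓ R.G1).subgroupOf R.G1) =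
      QuotientGroup.mk w := by
    rw [R.mk_eq_iff, hw, ed]
    have e : ((c : GL D.Idx F) * (u₂ * R.n₀ * b₂))⁻¹ * ((c : GL D.Idx F) * u₂ * R.n₀) = b₂⁻¹ := by
      group
    rw [e]
    exact Subgroup.inv_mem _ hb₂.1
  have hu₂1 : u₂ ≠ 1 := by
    intro h1
    apply hyz
    rw [hy, hz]
    have : v = w := by
      apply Subtype.ext
      rw [hv, hw, h1, mul_one]
    rw [this]
  refine ⟨c, u₂, hu₂, hu₂1, ?_⟩
  intro t ht
  obtain ⟨ht12, ht3⟩ := Subgroup.mem_inf.1 ht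
  obtain ⟨ht1, ht2⟩ := Subgroup.mem_inf.1 ht12
  rw [hx, R.mem_stab] at ht1
  rw [hy, R.mem_stab, hv] at ht2
  rw [hz, R.mem_stab, hw] at ht3
  have hs : ((c : GL D.Idx F))⁻¹ * (t : GL D.Idx F) * (c : GL D.Idx F) ∈
      D.diagonalSubgroup F ⊓ R.G1 := by
    apply R.two_stab _ (Subgroup.mem_inf.2 ⟨ht1,
      Subgroup.mul_mem _ (Subgroup.mul_mem _ (Subgroup.inv_mem _ c.2) t.2) c.2⟩)
    have e : R.n₀⁻¹ * (((c : GL D.Idx F))⁻¹ * (t : GL D.Idx F) * (c : GL D.Idx F)) * R.n₀ =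
        ((c : GL D.Idx F) * R.n₀)⁻¹ * (t : GL D.Idx F) * ((c : GL D.Idx F) * R.n₀) := by group
    rw [e]
    exact ht2
  refine ⟨hs, R.three_stab _ u₂ hs hu₂.1 ?_⟩
  have e : (u₂ * R.n₀)⁻¹ * (((c : GL D.Idx F))⁻¹ * (t : GL D.Idx F) * (c : GL D.Idx F)) *
      (u₂ * R.n₀) = ((c : GL D.Idx F) * u₂ * R.n₀)⁻¹ * (t : GL D.Idx F) *
        ((c : GL D.Idx F) * u₂ * R.n₀) := by group
  rw [e]
  exact ht3

/-- Three distinct points fixed by the centraliser in `H¹` of a non-trivial element of `U¹`. -/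
theorem three_point_ex (u : GL D.Idx F) (hu : u ∈ D.posUnipotent F ⊓ R.G1) (hu1 : u ≠ 1) :
    ∃ x y z : ↥R.G1 ⧸ (D.borelSubgroup F ⊓ R.G1).subgroupOf R.G1, x ≠ y ∧ x ≠ z ∧ y ≠ z ∧
      ∀ h : ↥R.G1, (h : GL D.Idx F) ∈ D.diagonalSubgroup F →
        (h : GL D.Idx F) * u = u * (h : GL D.Idx F) →
        h ∈ MulAction.stabilizer ↥R.G1 x ⊓ MulAction.stabilizer ↥R.G1 y ⊓
          MulAction.stabilizer ↥R.G1 z := by
  have hHB : D.diagonalSubgroup F ≤ D.borelSubgroup F := le_sup_right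
  have hUB : D.posUnipotent F ≤ D.borelSubgroup F := le_sup_left
  obtain ⟨v, hv⟩ : ∃ v : ↥R.G1, (v : GL D.Idx F) = R.n₀ := ⟨⟨R.n₀, R.hn₀G⟩, rfl⟩
  obtain ⟨w, hw⟩ : ∃ w : ↥R.G1, (w : GL D.Idx F) = u * R.n₀ :=
    ⟨⟨u, hu.2⟩ * ⟨R.n₀, R.hn₀G⟩, rfl⟩
  refine ⟨QuotientGroup.mk 1, QuotientGroup.mk v, QuotientGroup.mk w, ?_, ?_, ?_, ?_⟩
  · intro h
    rw [R.mk_eq_iff, hv, Subgroup.coe_one, inv_one, one_mul] at h
    exact R.n0_not_borel h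
  · intro h
    rw [R.mk_eq_iff, hw, Subgroup.coe_one, inv_one, one_mul] at h
    apply R.n0_not_borel
    have e : R.n₀ = u⁻¹ * (u * R.n₀) := by group
    rw [e]
    exact Subgroup.mul_mem _ (Subgroup.inv_mem _ (hUB hu.1)) h
  · intro h
    rw [R.mk_eq_iff, hv, hw] at h
    have e : R.n₀⁻¹ * (u * R.n₀) = R.n₀⁻¹ * u * R.n₀ := by group
    rw [e] at h
    have h1 : R.n₀⁻¹ * u * R.n₀ ∈ D.borelSubgroup F ⊓ D.negUnipotent F :=
      Subgroup.mem_inf.2 ⟨h, R.n0_inv_conj_pos u hu.1⟩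
    rw [borel_inf_negUnipotent D hD, Subgroup.mem_bot] at h1
    apply hu1
    have e2 : u = R.n₀ * (R.n₀⁻¹ * u * R.n₀) * R.n₀⁻¹ := by group
    rw [e2, h1]
    group
  · intro h hh hcomm
    have hc := hHB (R.n0_conj_diag (h : GL D.Idx F) hh).1
    refine Subgroup.mem_inf.2 ⟨Subgroup.mem_inf.2 ⟨?_, ?_⟩, ?_⟩
    · rw [R.mem_stab, Subgroup.coe_one, inv_one, one_mul, mul_one]
      exact hHB hh
    · rw [R.mem_stab, hv]
      exact hc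
    · rw [R.mem_stab, hw]
      have e : (u * R.n₀)⁻¹ * (h : GL D.Idx F) * (u * R.n₀) =
          R.n₀⁻¹ * (u⁻¹ * ((h : GL D.Idx F) * u)) * R.n₀ := by group
      rw [e, hcomm]
      have e2 : R.n₀⁻¹ * (u⁻¹ * (u * (h : GL D.Idx F))) * R.n₀ =
          R.n₀⁻¹ * (h : GL D.Idx F) * R.n₀ := by group
      rw [e2]
      exact hc

end Rk1

end Cfsg.Agent.Lib.Helper24
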