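import Mathlib
import Cfsg.Agent.Lib.Helper24.RkSigH
import Cfsg.Agent.Lib.Helper27.ReeOdd

/-!
# The small Ree groups: stabilisers of three points have order at most two
-/

set_option autoImplicit false
set_option maxHeartbeats 400000

namespace Cfsg.Agent.Lib.Helper24.ReeP

open Cfsg.Lie Matrix Cfsg.Agent.Lib.Helper24
open Cfsg.Agent.Lib.Helper27

variable {K : Type*} [Field K]

/-- An element of `H¹` centralising a non-trivial element of `U¹` has square one. -/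
theorem H1_cent_sq [Fintype K] (m : ℕ) (hK : Fintype.card K = 3 ^ (2 * m + 1))
    (h u : GL chevG2.Idx K) (hh : h ∈ chevG2.diagonalSubgroup K ⊓ twistedG2 K (3 ^ m))
    (hu : u ∈ chevG2.posUnipotent K ⊓ twistedG2 K (3 ^ m)) (hu1 : u ≠ 1)
    (hcomm : h * u = u * h) : h * h = 1 := by
  obtain ⟨hcount, hfix⟩ := Ree.H1_odd m hK
  have hcard := Ree.H1_card m hK
  by_contra hne
  have h4 : 3 ^ (2 * m + 1) % 4 = 3 := by
    rw [pow_succ, pow_mul, Nat.mul_mod, Nat.pow_mod]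
    norm_num
  have hk : Odd ((3 ^ (2 * m + 1) - 1) / 2) := by
    rw [Nat.odd_iff]
    omega
  have hpow : (h * h) ^ ((3 ^ (2 * m + 1) - 1) / 2) = 1 := by
    have h1 : (⟨h, hh⟩ : ↥(chevG2.diagonalSubgroup K ⊓ twistedG2 K (3 ^ m))) ^
        Nat.card ↥(chevG2.diagonalSubgroup K ⊓ twistedG2 K (3 ^ m)) = 1 := pow_card_eq_one'
    have h2 : h ^ (3 ^ (2 * m + 1) - 1) = 1 := by
      rw [hcard] at h1
      exact congrArg Subtype.val h1
    have e : 3 ^ (2 * m + 1) - 1 = 2 * ((3 ^ (2 * m + 1) - 1) / 2) := by omega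
    rw [← sq, ← pow_mul, ← e]
    exact h2
  have hodd : Odd (orderOf (h * h)) := Odd.of_dvd_nat hk (orderOf_dvd_of_pow_eq_one hpow)
  have hbot := hfix (h * h) (Subgroup.mul_mem _ hh hh) hne hodd
  have hmem : u ∈ (chevG2.posUnipotent K ⊓ twistedG2 K (3 ^ m)) ⊓
      Subgroup.centralizer {h * h} := by
    refine Subgroup.mem_inf.2 ⟨hu, ?_⟩
    rw [Subgroup.mem_centralizer_iff]
    intro z hz
    rw [Set.mem_singleton_iff] at hz
    subst hz
    rw [mul_assoc, hcomm, ← mul_assoc, hcomm, mul_assoc]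
  rw [hbot, Subgroup.mem_bot] at hmem
  exact hu1 hmem

theorem g2_W8 : W chevG2 8 8 = 2 ∧ W chevG2 8 10 = 0 := by decide +kernel

/-- In the action of `²G₂(q)` on the cosets of `B¹`, the stabiliser of three points has order at
most two, and order two for some three points. -/
theorem twistedG2_three_point [Fintype K] {m : ℕ} (hK : Fintype.card K = 3 ^ (2 * m + 1)) :
    (∀ x y z : ↥(twistedG2 K (3 ^ m)) ⧸
          (chevG2.borelSubgroup K ⊓ twistedG2 K (3 ^ m)).subgroupOf (twistedG2 K (3 ^ m)),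
        x ≠ y → x ≠ z → y ≠ z →
        Nat.card ↥(MulAction.stabilizer ↥(twistedG2 K (3 ^ m)) x ⊓
          MulAction.stabilizer ↥(twistedG2 K (3 ^ m)) y ⊓
          MulAction.stabilizer ↥(twistedG2 K (3 ^ m)) z) ≤ 2) ∧
      ∃ x y z : ↥(twistedG2 K (3 ^ m)) ⧸
          (chevG2.borelSubgroup K ⊓ twistedG2 K (3 ^ m)).subgroupOf (twistedG2 K (3 ^ m)),
        x ≠ y ∧ x ≠ z ∧ y ≠ z ∧
        Nat.card ↥(MulAction.stabilizer ↥(twistedG2 K (3 ^ m)) x ⊓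
          MulAction.stabilizer ↥(twistedG2 K (3 ^ m)) y ⊓
          MulAction.stabilizer ↥(twistedG2 K (3 ^ m)) z) = 2 := by
  classical
  have : CharP K 3 := Ree.charP_three (by omega) hK
  obtain ⟨σ, hσ⟩ := Ree.exists_sig m hK
  obtain ⟨hF, hadd, hsub, hodd⟩ := Ree.field_facts m hK
  have hcyc : IsCyclic ↥(chevG2.diagonalSubgroup K ⊓ twistedG2 K (3 ^ m)) :=
    Ree.H1_cyclic hσ hF hadd hodd
  have hcard := Ree.H1_card m hK
  have h4 : 3 ^ (2 * m + 1) % 4 = 3 := by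
    rw [pow_succ, pow_mul, Nat.mul_mod, Nat.pow_mod]
    norm_num
  have hc2 : Nat.card {h : ↥(chevG2.diagonalSubgroup K ⊓ twistedG2 K (3 ^ m)) // h ^ 2 = 1} = 2 :=
    card_pow_eq_one_of_dvd 2 (by rw [hcard]; omega)
  have he : (3 : ℕ) ^ m ≠ 0 := pow_ne_zero _ (by norm_num)
  have part1 : ∀ x y z : ↥(twistedG2 K (3 ^ m)) ⧸
      (chevG2.borelSubgroup K ⊓ twistedG2 K (3 ^ m)).subgroupOf (twistedG2 K (3 ^ m)),
      x ≠ y → x ≠ z → y ≠ z →
      Nat.card ↥(MulAction.stabilizer ↥(twistedG2 K (3 ^ m)) x ⊓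
        MulAction.stabilizer ↥(twistedG2 K (3 ^ m)) y ⊓
        MulAction.stabilizer ↥(twistedG2 K (3 ^ m)) z) ≤ 2 := by
    intro x y z hxy hxz hyz
    obtain ⟨c, u, hu, hu1, hT⟩ :=
      (ReeRk.reeRk hσ hF hadd hsub hodd).three_point x y z hxy hxz hyz
    rw [← hc2]
    refine Nat.card_le_card_of_injective
      (fun t : ↥(MulAction.stabilizer ↥(twistedG2 K (3 ^ m)) x ⊓
        MulAction.stabilizer ↥(twistedG2 K (3 ^ m)) y ⊓
        MulAction.stabilizer ↥(twistedG2 K (3 ^ m)) z) =>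
        (⟨⟨_, (hT t.1 t.2).1⟩, by
          apply Subtype.ext
          rw [sq]
          exact H1_cent_sq m hK _ u (hT t.1 t.2).1 hu hu1 (hT t.1 t.2).2⟩ :
          {h : ↥(chevG2.diagonalSubgroup K ⊓ twistedG2 K (3 ^ m)) // h ^ 2 = 1})) ?_
    intro t t' htt
    have e1 : ((c : GL chevG2.Idx K))⁻¹ * ((t : ↥(twistedG2 K (3 ^ m))) : GL chevG2.Idx K) *
        (c : GL chevG2.Idx K) = ((c : GL chevG2.Idx K))⁻¹ *
          ((t' : ↥(twistedG2 K (3 ^ m))) : GL chevG2.Idx K) * (c : GL chevG2.Idx K) :=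
      congrArg (fun s : {h : ↥(chevG2.diagonalSubgroup K ⊓ twistedG2 K (3 ^ m)) // h ^ 2 = 1} =>
        ((s : ↥(chevG2.diagonalSubgroup K ⊓ twistedG2 K (3 ^ m))) : GL chevG2.Idx K)) htt
    have e2 : ((t : ↥(twistedG2 K (3 ^ m))) : GL chevG2.Idx K) =
        ((t' : ↥(twistedG2 K (3 ^ m))) : GL chevG2.Idx K) :=
      mul_left_cancel (mul_right_cancel e1)
    exact Subtype.ext (Subtype.ext e2)
  refine ⟨part1, ?_⟩
  -- the element `u₀ = x_{a+b}(1) x_{3a+b}(1)` and the involution `h₀ = h_{a+b}(-1)`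
  have hu0G : xGL chevG2 Ree.hG2 8 (1 : K) * xGL chevG2 Ree.hG2 10 1 ∈ twistedG2 K (3 ^ m) := by
    rw [← Ree.reeU_010 (3 ^ m) he]
    exact Ree.reeU_mem _ _ _ _
  have hu0w : xGL chevG2 Ree.hG2 8 (1 : K) * xGL chevG2 Ree.hG2 10 1 =
      wGL chevG2 Ree.hG2 (Ree.u6 0 0 1 0 1 0) := by
    rw [Ree.u6_val]
    simp only [xGL_zero, one_mul, mul_one]
  have hu0U : xGL chevG2 Ree.hG2 8 (1 : K) * xGL chevG2 Ree.hG2 10 1 ∈ chevG2.posUnipotent K := by
    rw [hu0w]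
    exact Ree.u6_mem_pos _ _ _ _ _ _
  have hu01 : xGL chevG2 Ree.hG2 8 (1 : K) * xGL chevG2 Ree.hG2 10 1 ≠ 1 := by
    intro h1
    have e1 : wGL chevG2 Ree.hG2 (Ree.u6 (0 : K) 0 1 0 1 0) =
        wGL chevG2 Ree.hG2 (Ree.u6 (0 : K) 0 0 0 0 0) := by
      rw [← hu0w, h1, Ree.u6_val]
      simp only [xGL_zero, one_mul]
    exact one_ne_zero (Ree.u6_inj _ _ _ _ _ _ _ _ _ _ _ _ e1).2.2.1
  have hex : ∃ x y z : ↥(twistedG2 K (3 ^ m)) ⧸
      (chevG2.borelSubgroup K ⊓ twistedG2 K (3 ^ m)).subgroupOf (twistedG2 K (3 ^ m)),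
      x ≠ y ∧ x ≠ z ∧ y ≠ z ∧
      ∀ h : ↥(twistedG2 K (3 ^ m)), (h : GL chevG2.Idx K) ∈ chevG2.diagonalSubgroup K →
        (h : GL chevG2.Idx K) * (xGL chevG2 Ree.hG2 8 (1 : K) * xGL chevG2 Ree.hG2 10 1) =
          (xGL chevG2 Ree.hG2 8 (1 : K) * xGL chevG2 Ree.hG2 10 1) * (h : GL chevG2.Idx K) →
        h ∈ MulAction.stabilizer ↥(twistedG2 K (3 ^ m)) x ⊓
          MulAction.stabilizer ↥(twistedG2 K (3 ^ m)) y ⊓
          MulAction.stabilizer ↥(twistedG2 K (3 ^ m)) z :=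
    (ReeRk.reeRk hσ hF hadd hsub hodd).three_point_ex _ (Subgroup.mem_inf.2 ⟨hu0U, hu0G⟩) hu01
  obtain ⟨x, y, z, hxy, hxz, hyz, hmem⟩ := hex
  refine ⟨x, y, z, hxy, hxz, hyz, le_antisymm (part1 x y z hxy hxz hyz) ?_⟩
  have hh0G := ReeH.hm1_mem (K := K) (3 ^ m) he
  have hh0H := ReeH.hm1_diag (K := K)
  have hh0d := ReeH.hm1_dEnt (K := K)
  have hh01 : wGL chevG2 Ree.hG2 (chevG2.hWord 8 (-1 : K)) ≠ 1 := by
    intro h1
    rw [h1, Ree.dEnt_one] at hh0d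
    have h2 : (2 : K) = 0 := by linear_combination hh0d
    have h3 : (3 : K) = 0 := by exact_mod_cast CharP.cast_eq_zero K 3
    have h4' : (1 : K) = 0 := by linear_combination h3 - h2
    exact one_ne_zero h4'
  have hcomm : wGL chevG2 Ree.hG2 (chevG2.hWord 8 (-1 : K)) *
      (xGL chevG2 Ree.hG2 8 (1 : K) * xGL chevG2 Ree.hG2 10 1) =
      (xGL chevG2 Ree.hG2 8 (1 : K) * xGL chevG2 Ree.hG2 10 1) *
        wGL chevG2 Ree.hG2 (chevG2.hWord 8 (-1 : K)) := by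
    have hx : ((wGL chevG2 Ree.hG2 (chevG2.hWord 8 (-1 : K)) : GL chevG2.Idx K) :
        Matrix chevG2.Idx chevG2.Idx K) = torus K chevG2 (fun s => (-1 : K) ^ W chevG2 8 s) := by
      rw [ReeH.hm1_val, hMat_eq_torus chevG2 Ree.hG2 8 (by decide) (-1) (by simp)]
    obtain ⟨d, hd, hxd⟩ := diagonalSubgroup_le_gradedTorus chevG2 Ree.hG2 hh0H
    have hd8 : d 8 = 1 := by
      have h1 := dEnt_torus chevG2 _ d hxd 8 Ree.g2_lt.2.2.1
      have h2 := dEnt_torus chevG2 _ _ hx 8 Ree.g2_lt.2.2.1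
      rw [← h1, h2, g2_W8.1]
      norm_num
    have hd10 : d 10 = 1 := by
      have h1 := dEnt_torus chevG2 _ d hxd 10 Ree.g2_lt.2.2.2.2.1
      have h2 := dEnt_torus chevG2 _ _ hx 10 Ree.g2_lt.2.2.2.2.1
      rw [← h1, h2, g2_W8.2]
      norm_num
    apply Units.ext
    have key := torus_mul_wordMat chevG2 d hd [(8, (1 : K)), (10, 1)] (by
      intro p hp
      simp only [List.mem_cons, List.not_mem_nil, or_false] at hp
      rcases hp with rfl | rfl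
      · exact Ree.g2_lt.2.2.1
      · exact Ree.g2_lt.2.2.2.2.1)
    simp only [List.map_cons, List.map_nil, hd8, hd10, one_mul] at key
    have ew : xGL chevG2 Ree.hG2 8 (1 : K) * xGL chevG2 Ree.hG2 10 1 =
        wGL chevG2 Ree.hG2 [(8, (1 : K)), (10, 1)] := by
      simp only [wGL_cons, wGL_nil, mul_one]
    rw [ew, Units.val_mul, Units.val_mul, hxd, wGL_val]
    exact key
  have hin := hmem ⟨_, hh0G⟩ hh0H hcomm
  have hnt : Nontrivial ↥(MulAction.stabilizer ↥(twistedG2 K (3 ^ m)) x ⊓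
      MulAction.stabilizer ↥(twistedG2 K (3 ^ m)) y ⊓
      MulAction.stabilizer ↥(twistedG2 K (3 ^ m)) z) := by
    refine ⟨⟨⟨⟨_, hh0G⟩, hin⟩, 1, ?_⟩⟩
    intro h1
    exact hh01 (congrArg (fun s : ↥(MulAction.stabilizer ↥(twistedG2 K (3 ^ m)) x ⊓
      MulAction.stabilizer ↥(twistedG2 K (3 ^ m)) y ⊓
      MulAction.stabilizer ↥(twistedG2 K (3 ^ m)) z) =>
      ((s : ↥(twistedG2 K (3 ^ m))) : GL chevG2.Idx K)) h1)
  exact Finite.one_lt_card_iff_nontrivial.2 hnt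

end Cfsg.Agent.Lib.Helper24.ReeP
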